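import Cfsg.Agent.H276.IF.Mid
import Cfsg.Agent.H786.IF.PhiA
import Cfsg.Agent.H237.IF.Cnt
import Cfsg.Agent.H198.IF.End

/-!
# S5719, orthogonal groups, `q` odd, dimension at least 11: no counterexample with |A| even (helper276)
-/

set_option autoImplicit false
set_option maxHeartbeats 400000
set_option linter.unusedSectionVars false

namespace Cfsg.Agent.H276.IF

open QuadraticMap Cfsg.Agent.LieClassical Cfsg.Agent.LieClassical.OrthCore Cfsg.Agent.LieClassical.OrthTrans
  Cfsg.Agent.LieClassical.OrthSimple Cfsg.Agent.AutOrth.SemiSim Cfsg.Agent.AutOrth.Gen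
  Cfsg.Agent.H989.Gs.Gen Cfsg.Agent.H989.Fx
open Cfsg.Agent.UGT.U2.FOne.Orth (Four)
open Subgroup Cfsg.Agent.H209.Fxy Cfsg.Agent.H112.Row2.OrthExt

variable {F V T : Type*} [Field F] [AddCommGroup V] [Module F V] {Q : QuadraticForm F V}

/-- the class of a fundamental involution -/
theorem class_fund [Finite F] [FiniteDimensional F V] (h2 : (2 : F) ≠ 0) (hQ : Nondeg Q)
    (hN : 8 ≤ Module.finrank F V) {z : ↥(E Q)} (hz : Fund Q z) :
    (centralizer ({z} : Set ↥(E Q))).index ≤ Nat.card F ^ (4 * (Module.finrank F V - 4) + 1) := by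
  have hzz := hz.sq
  obtain ⟨e₁, f₁, e₂, f₂, hF, a1, a2, a3, a4, a5⟩ := hz
  have hc := isCompl_P4 hF
  have hneg : ∀ a ∈ Submodule.span F {e₁, f₁, e₂, f₂}, ap z a = -a := by
    intro a ha
    induction ha using Submodule.span_induction with
    | mem x hx =>
      rcases hx with rfl | rfl | rfl | rfl
      exacts [a1, a2, a3, a4]
    | zero => rw [neg_zero]; exact map_zero _
    | add x y _ _ hx hy => rw [ap_add, hx, hy, neg_add]
    | smul c x _ hx => rw [ap_smul, hx, smul_neg]
  have hVm : ∀ v, v ∈ Submodule.span F {e₁, f₁, e₂, f₂} ↔ ap z v = -v := by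
    intro v
    refine ⟨hneg v, fun hv => ?_⟩
    have h1 : v ∈ P4 Q e₁ f₁ e₂ f₂ ⊔ Submodule.span F {e₁, f₁, e₂, f₂} := by
      rw [hc.sup_eq_top]; exact Submodule.mem_top
    obtain ⟨d, hd, a, ha, rfl⟩ := Submodule.mem_sup.1 h1
    obtain ⟨m1, m2, m3, m4⟩ := mem_P4.1 hd
    rw [ap_add, hneg a ha, a5 d m1 m2 m3 m4, neg_add] at hv
    have h3 : d = -d := add_right_cancel hv
    have h4 : (2 : F) • d = 0 := by rw [two_smul]; nth_rewrite 2 [h3]; exact add_neg_cancel d
    rw [(smul_eq_zero.1 h4).resolve_left h2, zero_add]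
    exact ha
  have h1 := Cfsg.Agent.H237.IF.class_sq_one h2 hQ z hzz _ hVm
  refine h1.trans (Nat.pow_le_pow_right Nat.card_pos ?_)
  have h3 := Submodule.finrank_add_eq_of_isCompl hc
  have h4 := finrank_P4 (Q := Q) e₁ f₁ e₂ f₂
  have h5 : Module.finrank F (Submodule.span F {e₁, f₁, e₂, f₂}) ≤ 4 := by omega
  generalize Module.finrank F (Submodule.span F {e₁, f₁, e₂, f₂}) = k at h5 ⊢
  interval_cases k <;> omega

open Cfsg.Agent.H786.IF (psi) in
theorem psi_ge : ∀ n : ℕ, 7 ≤ n → 4 * n + 1 ≤ 5 * psi n := by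
  intro n
  induction n using Nat.strong_induction_on with
  | _ n ih =>
    intro hn
    match n, ih, hn with
    | 7, _, _ => decide
    | 8, _, _ => decide
    | (m + 9), ih, _ =>
      have h1 := ih (m + 7) (by omega) (by omega)
      have h2 : psi (m + 9) = m + 5 + psi (m + 7) := rfl
      omega

theorem phi_EB [Finite F] [FiniteDimensional F V] (h2 : (2 : F) ≠ 0) (hN : 11 ≤ Module.finrank F V)
    (D : Submodule F V) (hD : Ns Q D) (hfr : Module.finrank F V ≤ Module.finrank F D + 4) (X : Subgroup ↥(E Q))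
    (hX : ∀ z ∈ X, ¬ Fund Q z) :
    Nat.card F ^ (4 * (Module.finrank F V - 4) + 1) ≤ X.relIndex (EB Q D) ^ 5 := by
  have hfin := finite_E Q
  have h1 := Cfsg.Agent.H786.IF.phi h2 (Module.finrank F D) (EB Q D) D hD rfl (by
    intro g hg
    induction hg using Subgroup.closure_induction with
    | mem g hg =>
      obtain ⟨u, hu, w, hw, hQu, hp, rfl⟩ := hg
      intro x hx
      rw [S_ap hQu hp]
      exact D.sub_mem (D.sub_mem (D.add_mem hx (D.smul_mem _ hw)) (D.smul_mem _ hu)) (D.smul_mem _ hu)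
    | one => intro x hx; exact hx
    | mul a b _ _ ha hb => intro x hx; rw [ap_mul]; exact ha _ (hb _ hx)
    | inv a _ ha =>
      intro x hx
      -- `a` maps `D` onto `D`
      have hsurj : Function.Surjective (fun y : D => (⟨ap a y, ha y y.2⟩ : D)) := by
        have hfD : Finite D := Module.finite_of_finite F
        apply Finite.surjective_of_injective
        intro y y' hyy
        have h3 : ap a y = ap a y' := congrArg Subtype.val hyy
        have h4 := congrArg (ap a⁻¹) h3
        rw [ap_inv_ap, ap_inv_ap] at h4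
        exact Subtype.ext h4
      obtain ⟨y, hy⟩ := hsurj ⟨x, hx⟩
      have h3 : ap a y = x := congrArg Subtype.val hy
      rw [ap_inv_of h3]
      exact y.2)
    (fun u hu w hw hQu hp => Subgroup.subset_closure ⟨u, hu, w, hw, hQu, hp, rfl⟩) 1
    (fun Y _ => Nat.one_le_iff_ne_zero.2 index_ne_zero_of_finite) X hX
  rw [mul_one] at h1
  refine le_trans ?_ (Nat.pow_le_pow_left h1 5)
  rw [← pow_mul]
  apply Nat.pow_le_pow_right Nat.card_pos
  have h3 := psi_ge (Module.finrank F D) (by omega)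
  omega

/-- the kill, from the use of PHI (`huse`) and the minimal index theorem (`hmin`) -/
theorem kill_of [Finite F] [FiniteDimensional F V] (h2 : (2 : F) ≠ 0) (hQ : Nondeg Q)
    (hN : 11 ≤ Module.finrank F V) [Group T] [Finite T] [IsSimpleGroup T] (hna : ∃ a b : T, a * b ≠ b * a)
    {A : Subgroup T} {Γ : Subgroup (MulAut T)} (h : IF A Γ) (pi : ↥(E Q) →* T) (hpi : Function.Surjective pi)
    (hk : KerScalar pi) (huse : ∃ z : ↥(E Q), Fund Q z ∧ pi z ∈ A)
    (hmin : ∀ D : Submodule F V, Ns Q D → 7 ≤ Module.finrank F D → ∀ H : Subgroup ↥(E (QU Q D)), H ≠ ⊤ →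
      Nat.card F ^ (Module.finrank F D - 2) ≤ H.index) : False := by
  obtain ⟨z, hz, hzA⟩ := huse
  have h1 : A.comap pi = ⊤ := by
    refine Cfsg.Agent.H198.IF.end_game hQ hN (A.comap pi) z hz hzA ?_
    intro z hz hzA
    refine mid_step h2 hQ hN hna h pi hpi hk (fun z hz => class_fund h2 hQ (by omega) hz)
      (fun D hD hfr X hX => phi_EB h2 hN D hD hfr X hX) (fun D hD hfr H hH => ?_) hz hzA
    refine le_trans (Nat.pow_le_pow_right Nat.card_pos (by omega)) (hmin D hD (by omega) H hH)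
  apply h.ne_top
  rw [← map_comap_eq_self_of_surjective hpi A, h1, ← MonoidHom.range_eq_map]
  exact MonoidHom.range_eq_top.2 hpi

end Cfsg.Agent.H276.IF
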