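import Cfsg.Agent.H276.IF.Kill
import Cfsg.Agent.H786.IF.Use

/-!
# S5719, orthogonal groups, q odd, dimension at least 11: no counterexample with |A| even (helper276)
-/

set_option autoImplicit false
set_option linter.unusedSectionVars false

namespace Cfsg.Agent.H276.IF

open QuadraticMap Cfsg.Agent.LieClassical Cfsg.Agent.LieClassical.OrthCore Cfsg.Agent.LieClassical.OrthTrans
  Cfsg.Agent.LieClassical.OrthSimple Cfsg.Agent.AutOrth.SemiSim Cfsg.Agent.AutOrth.Gen
  Cfsg.Agent.H989.Gs.Gen Cfsg.Agent.H989.Fx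
open Subgroup Cfsg.Agent.H209.Fxy Cfsg.Agent.H112.Row2.OrthExt

variable {F V T : Type*} [Field F] [AddCommGroup V] [Module F V] {Q : QuadraticForm F V}

/-- the kill, from the minimal index theorem -/
theorem killE_min [Finite F] [FiniteDimensional F V] (h2 : (2 : F) ≠ 0) (hQ : Nondeg Q)
    (hN : 11 ≤ Module.finrank F V) [Group T] [Finite T] [IsSimpleGroup T] (hna : ∃ a b : T, a * b ≠ b * a)
    {A : Subgroup T} {Γ : Subgroup (MulAut T)} (h : IF A Γ) (pi : ↥(E Q) →* T) (hpi : Function.Surjective pi)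
    (hk : KerScalar pi) (hA : ∃ t ∈ A, orderOf t = 2)
    (hmin : ∀ D : Submodule F V, Ns Q D → 7 ≤ Module.finrank F D → ∀ H : Subgroup ↥(E (QU Q D)), H ≠ ⊤ →
      Nat.card F ^ (Module.finrank F D - 2) ≤ H.index) : False := by
  obtain ⟨t, ht, ho⟩ := hA
  obtain ⟨t, rfl⟩ := hpi t
  exact kill_of h2 hQ hN hna h pi hpi hk (Cfsg.Agent.H786.IF.use_fund h2 hQ hN h hna pi hpi hk ht ho) hmin

end Cfsg.Agent.H276.IF
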