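import Cfsg.Agent.H989.Fx.OmE
import Cfsg.Agent.H809.IF.EngC
import Cfsg.Agent.H847.IF.Lift
import Cfsg.Agent.H112.Row2.OrthExt

/-!
# S5719, orthogonal groups, `q` odd: the middle step (helper276)

`z` a fundamental involution with `π z ∈ A`, `W` its `(-1)`-space, `dim V ≥ 11`. Then `E(W⊥) ≤ π⁻¹ A`: `E(W⊥)` contains a
fundamental involution `s` of `π⁻¹ A`, and (E4) for `(z, s)` with `|s^{C(z)}| ≥ q⁹` gives `f(z) < q^(dim V - 6)`.
-/

set_option autoImplicit false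
set_option maxHeartbeats 400000
set_option linter.unusedSectionVars false
set_option linter.unusedSimpArgs false

namespace Cfsg.Agent.H276.IF

open QuadraticMap Cfsg.Agent.LieClassical Cfsg.Agent.LieClassical.OrthCore Cfsg.Agent.LieClassical.OrthTrans
  Cfsg.Agent.LieClassical.OrthSimple Cfsg.Agent.AutOrth.SemiSim Cfsg.Agent.AutOrth.Gen
  Cfsg.Agent.H989.Gs.Gen Cfsg.Agent.H989.Fx
open Cfsg.Agent.UGT.U2.FOne.Orth (Four)

variable {F V : Type*} [Field F] [AddCommGroup V] [Module F V] {Q : QuadraticForm F V}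

/-! ### Nondegenerate subspaces -/

/-- the space orthogonal to a vector -/
def P1 (Q : QuadraticForm F V) (y : V) : Submodule F V := LinearMap.ker (polarBilin Q y)

theorem mem_P1 {y v : V} : v ∈ P1 Q y ↔ polar Q y v = 0 := Iff.rfl

/-- `D` is nondegenerate -/
def Ns (Q : QuadraticForm F V) (D : Submodule F V) : Prop := ∀ x ∈ D, (∀ y ∈ D, polar Q x y = 0) → x = 0

theorem ns_top (hQ : Nondeg Q) : Ns Q ⊤ := fun x _ h => hQ x fun y => h y Submodule.mem_top

theorem Ns.exists_ne {D : Submodule F V} (hD : Ns Q D) (h0 : D ≠ ⊥) : ∃ y ∈ D, Q y ≠ 0 := by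
  by_contra hcon
  push Not at hcon
  obtain ⟨x, hx, hx0⟩ := (Submodule.ne_bot_iff _).1 h0
  apply hx0
  apply hD x hx
  intro y hy
  have h1 := Q_add (Q := Q) x y
  rw [hcon _ (D.add_mem hx hy), hcon _ hx, hcon _ hy, zero_add, zero_add] at h1
  exact h1.symm

theorem Ns.inf (h2 : (2 : F) ≠ 0) {D : Submodule F V} (hD : Ns Q D) {y : V} (hy : y ∈ D) (hQy : Q y ≠ 0) :
    Ns Q (D ⊓ P1 Q y) := by
  rintro x ⟨hx, hxy⟩ h
  apply hD x hx
  intro w hw
  have hyx : polar Q x y = 0 := by rw [polar_comm]; exact hxy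
  have h3 : w - (polar Q y w / (2 * Q y)) • y ∈ D ⊓ P1 Q y := by
    refine ⟨D.sub_mem hw (D.smul_mem _ hy), ?_⟩
    show polar Q y _ = 0
    rw [polar_sub_right, polar_smul_right, polar_self', smul_eq_mul, div_mul_cancel₀ _ (mul_ne_zero h2 hQy), sub_self]
  have h4 := h _ h3
  rw [polar_sub_right, polar_smul_right, hyx, smul_zero, sub_zero] at h4
  exact h4

theorem Ns.inf_hyp {D : Submodule F V} (hD : Ns Q D) {e f : V} (h : Hyp Q e f) (he : e ∈ D) (hf : f ∈ D) :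
    Ns Q (D ⊓ P1 Q e ⊓ P1 Q f) := by
  rintro x ⟨⟨hx, hxe⟩, hxf⟩ h1
  apply hD x hx
  intro w hw
  have hxe' : polar Q x e = 0 := by rw [polar_comm]; exact hxe
  have hxf' : polar Q x f = 0 := by rw [polar_comm]; exact hxf
  have h3 : w - polar Q f w • e - polar Q e w • f ∈ D ⊓ P1 Q e ⊓ P1 Q f := by
    refine ⟨⟨D.sub_mem (D.sub_mem hw (D.smul_mem _ he)) (D.smul_mem _ hf), ?_⟩, ?_⟩
    · show polar Q e _ = 0
      rw [polar_sub_right, polar_sub_right, polar_smul_right, polar_smul_right, h.polar_left, h.pair]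
      simp
    · show polar Q f _ = 0
      rw [polar_sub_right, polar_sub_right, polar_smul_right, polar_smul_right, h.polar_right, h.pair']
      simp
  have h4 := h1 _ h3
  rw [polar_sub_right, polar_sub_right, polar_smul_right, polar_smul_right, hxe', hxf'] at h4
  simpa using h4

theorem finrank_inf [FiniteDimensional F V] (D : Submodule F V) (y : V) :
    Module.finrank F D ≤ Module.finrank F (D ⊓ P1 Q y : Submodule F V) + 1 := by
  have h1 := Submodule.finrank_sup_add_finrank_inf_eq D (P1 Q y)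
  have h2 := LinearMap.finrank_range_add_finrank_ker (polarBilin Q y)
  have h3 : Module.finrank F (LinearMap.range (polarBilin Q y)) ≤ 1 := by
    have := Submodule.finrank_le (LinearMap.range (polarBilin Q y))
    rwa [Module.finrank_self] at this
  have h4 : Module.finrank F (D ⊔ P1 Q y : Submodule F V) ≤ Module.finrank F V := Submodule.finrank_le _
  have h5 : Module.finrank F (P1 Q y) = Module.finrank F (LinearMap.ker (polarBilin Q y)) := rfl
  omega

/-- the space orthogonal to two hyperbolic pairs -/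
def P4 (Q : QuadraticForm F V) (e₁ f₁ e₂ f₂ : V) : Submodule F V := P1 Q e₁ ⊓ P1 Q f₁ ⊓ P1 Q e₂ ⊓ P1 Q f₂

theorem mem_P4 {e₁ f₁ e₂ f₂ v : V} :
    v ∈ P4 Q e₁ f₁ e₂ f₂ ↔ polar Q e₁ v = 0 ∧ polar Q f₁ v = 0 ∧ polar Q e₂ v = 0 ∧ polar Q f₂ v = 0 := by
  constructor
  · rintro ⟨⟨⟨a, b⟩, c⟩, d⟩
    exact ⟨a, b, c, d⟩
  · rintro ⟨a, b, c, d⟩
    exact ⟨⟨⟨a, b⟩, c⟩, d⟩

theorem Ns.inf_four {D : Submodule F V} (hD : Ns Q D) {e₁ f₁ e₂ f₂ : V} (h : Four Q e₁ f₁ e₂ f₂) (he₁ : e₁ ∈ D)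
    (hf₁ : f₁ ∈ D) (he₂ : e₂ ∈ D) (hf₂ : f₂ ∈ D) : Ns Q (D ⊓ P4 Q e₁ f₁ e₂ f₂) := by
  have h1 := (hD.inf_hyp h.h1 he₁ hf₁).inf_hyp h.h2 ⟨⟨he₂, h.ee⟩, h.fe⟩ ⟨⟨hf₂, h.ef⟩, h.ff⟩
  have h2 : D ⊓ P4 Q e₁ f₁ e₂ f₂ = D ⊓ P1 Q e₁ ⊓ P1 Q f₁ ⊓ P1 Q e₂ ⊓ P1 Q f₂ := by
    unfold P4
    simp only [inf_assoc]
  rw [h2]
  exact h1

theorem finrank_inf_four [FiniteDimensional F V] (D : Submodule F V) (e₁ f₁ e₂ f₂ : V) :
    Module.finrank F D ≤ Module.finrank F (D ⊓ P4 Q e₁ f₁ e₂ f₂ : Submodule F V) + 4 := by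
  have h2 : D ⊓ P4 Q e₁ f₁ e₂ f₂ = D ⊓ P1 Q e₁ ⊓ P1 Q f₁ ⊓ P1 Q e₂ ⊓ P1 Q f₂ := by
    unfold P4
    simp only [inf_assoc]
  rw [h2]
  have h3 := finrank_inf (Q := Q) D e₁
  have h4 := finrank_inf (Q := Q) (D ⊓ P1 Q e₁) f₁
  have h5 := finrank_inf (Q := Q) (D ⊓ P1 Q e₁ ⊓ P1 Q f₁) e₂
  have h6 := finrank_inf (Q := Q) (D ⊓ P1 Q e₁ ⊓ P1 Q f₁ ⊓ P1 Q e₂) f₂
  omega

/-- three pairwise orthogonal nonsingular vectors in a nondegenerate space of dimension at least 3 -/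
theorem Ns.exists_three [FiniteDimensional F V] (h2 : (2 : F) ≠ 0) {D : Submodule F V} (hD : Ns Q D)
    (h3 : 3 ≤ Module.finrank F D) :
    ∃ b₁ ∈ D, ∃ b₂ ∈ D, ∃ b₃ ∈ D, Q b₁ ≠ 0 ∧ Q b₂ ≠ 0 ∧ Q b₃ ≠ 0 ∧ polar Q b₁ b₂ = 0 ∧ polar Q b₁ b₃ = 0 ∧
      polar Q b₂ b₃ = 0 := by
  have hne : ∀ D' : Submodule F V, 1 ≤ Module.finrank F D' → D' ≠ ⊥ := by
    rintro D' h rfl
    rw [finrank_bot] at h
    omega
  obtain ⟨b₁, hb₁, hq₁⟩ := hD.exists_ne (hne _ (by omega))
  have hD1 := hD.inf h2 hb₁ hq₁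
  have hf1 := finrank_inf (Q := Q) D b₁
  obtain ⟨b₂, hb₂, hq₂⟩ := hD1.exists_ne (hne _ (by omega))
  have hD2 := hD1.inf h2 hb₂ hq₂
  have hf2 := finrank_inf (Q := Q) (D ⊓ P1 Q b₁) b₂
  obtain ⟨b₃, hb₃, hq₃⟩ := hD2.exists_ne (hne _ (by omega))
  exact ⟨b₁, hb₁, b₂, hb₂.1, b₃, hb₃.1.1, hq₁, hq₂, hq₃, hb₂.2, hb₃.1.2, hb₃.2⟩

/-- three pairwise orthogonal vectors with given nonzero norms in a hyperbolic 4-space -/
theorem exists_three_four [Finite F] (h2 : (2 : F) ≠ 0) {e₁ f₁ e₂ f₂ : V} (h : Four Q e₁ f₁ e₂ f₂) {c₁ c₂ c₃ : F}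
    (h1 : c₁ ≠ 0) (h2' : c₂ ≠ 0) :
    ∃ a₁ ∈ Submodule.span F {e₁, f₁, e₂, f₂}, ∃ a₂ ∈ Submodule.span F {e₁, f₁, e₂, f₂},
      ∃ a₃ ∈ Submodule.span F {e₁, f₁, e₂, f₂}, Q a₁ = c₁ ∧ Q a₂ = c₂ ∧ Q a₃ = c₃ ∧ polar Q a₁ a₂ = 0 ∧
        polar Q a₁ a₃ = 0 ∧ polar Q a₂ a₃ = 0 := by
  cases nonempty_fintype F
  have hchar : ringChar F ≠ 2 := by
    intro h3
    apply h2
    have := ringChar.Nat.cast_ringChar (R := F)
    rw [h3] at this
    exact_mod_cast this
  have he₁ : e₁ ∈ Submodule.span F {e₁, f₁, e₂, f₂} := Submodule.subset_span (by simp)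
  have hf₁ : f₁ ∈ Submodule.span F {e₁, f₁, e₂, f₂} := Submodule.subset_span (by simp)
  have he₂ : e₂ ∈ Submodule.span F {e₁, f₁, e₂, f₂} := Submodule.subset_span (by simp)
  have hf₂ : f₂ ∈ Submodule.span F {e₁, f₁, e₂, f₂} := Submodule.subset_span (by simp)
  obtain ⟨p1, p2, p3, p4, p5, p6, p7, p8, p9, p10, p11, p12, p13, p14, p15, p16⟩ := h.pols
  -- the binary form represents `c₃`
  obtain ⟨a, b, hab⟩ := FiniteField.exists_root_sum_quadratic (R := F)
    (f := Polynomial.C (-c₁) * Polynomial.X ^ 2 + Polynomial.C 0 * Polynomial.X + Polynomial.C (-c₃))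
    (g := Polynomial.C (-c₂) * Polynomial.X ^ 2 + Polynomial.C 0 * Polynomial.X + Polynomial.C 0)
    (Polynomial.degree_quadratic (neg_ne_zero.2 h1)) (Polynomial.degree_quadratic (neg_ne_zero.2 h2'))
    (by
      rw [← Nat.card_eq_fintype_card]
      have := FiniteField.odd_card_of_char_ne_two hchar
      rw [Nat.card_eq_fintype_card]
      exact this)
  simp only [Polynomial.eval_add, Polynomial.eval_mul, Polynomial.eval_pow, Polynomial.eval_C, Polynomial.eval_X] at hab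
  refine ⟨e₁ + c₁ • f₁, Submodule.add_mem _ he₁ (Submodule.smul_mem _ _ hf₁), e₂ + c₂ • f₂,
    Submodule.add_mem _ he₂ (Submodule.smul_mem _ _ hf₂), a • (e₁ - c₁ • f₁) + b • (e₂ - c₂ • f₂),
    Submodule.add_mem _ (Submodule.smul_mem _ _ (Submodule.sub_mem _ he₁ (Submodule.smul_mem _ _ hf₁)))
      (Submodule.smul_mem _ _ (Submodule.sub_mem _ he₂ (Submodule.smul_mem _ _ hf₂))), ?_, ?_, ?_, ?_, ?_, ?_⟩
  · rw [Q_add, QuadraticMap.map_smul, h.h1.left, h.h1.right, polar_smul_right, p5]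
    simp
  · rw [Q_add, QuadraticMap.map_smul, h.h2.left, h.h2.right, polar_smul_right, p7]
    simp
  · have k1 : Q (e₁ - c₁ • f₁) = -c₁ := by
      rw [sub_eq_add_neg, ← neg_smul, Q_add, QuadraticMap.map_smul, h.h1.left, h.h1.right, polar_smul_right, p5]
      simp
    have k2 : Q (e₂ - c₂ • f₂) = -c₂ := by
      rw [sub_eq_add_neg, ← neg_smul, Q_add, QuadraticMap.map_smul, h.h2.left, h.h2.right, polar_smul_right, p7]
      simp
    rw [Q_add, QuadraticMap.map_smul, QuadraticMap.map_smul, k1, k2, polar_smul_left, polar_smul_right, polar_sub_left,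
      polar_sub_right, polar_sub_right, polar_smul_left, polar_smul_left, polar_smul_right, polar_smul_right, p9, p11,
      p13, p15]
    simp only [smul_eq_mul]
    linear_combination hab
  · rw [polar_add_left, polar_add_right, polar_add_right, polar_smul_left, polar_smul_left, polar_smul_right,
      polar_smul_right, p9, p11, p13, p15]
    simp
  · simp only [polar_add_left, polar_add_right, polar_sub_right, polar_smul_left, polar_smul_right, smul_eq_mul, p1, p2,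
      p5, p6, p9, p11, p13, p15]
    ring
  · simp only [polar_add_left, polar_add_right, polar_sub_right, polar_smul_left, polar_smul_right, smul_eq_mul, p3, p4,
      p7, p8, p10, p12, p14, p16]
    ring

/-! ### Three singular vectors -/

theorem reg {v w x x' : V} (hv : Q v = 0) (hvw : polar Q v w ≠ 0) (hx : polar Q v x = 0) (hwx : polar Q w x = 0)
    (hx' : polar Q v x' = 0) (hwx' : polar Q w x' = 0) (H : ap (S Q v x) w = ap (S Q v x') w) : x = x' := by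
  rw [S_ap hv hx, S_ap hv hx', polar_comm Q x w, polar_comm Q x' w, hwx, hwx'] at H
  have h1 : polar Q v w • (x - x') = ((Q x - Q x') * polar Q v w) • v := by
    have h2 : polar Q v w • (x - x') = (w + polar Q v w • x - (0 : F) • v - (Q x * polar Q v w) • v) -
        (w + polar Q v w • x' - (0 : F) • v - (Q x' * polar Q v w) • v) + ((Q x - Q x') * polar Q v w) • v := by
      module
    rw [h2, H]
    module
  have h2 : x - x' = (Q x - Q x') • v := by
    have h3 : polar Q v w • (x - x') = polar Q v w • ((Q x - Q x') • v) := by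
      rw [h1, smul_smul, mul_comm]
    exact smul_right_injective _ hvw h3
  have h3 : polar Q w (x - x') = 0 := by rw [polar_sub_right, hwx, hwx', sub_zero]
  rw [h2, polar_smul_right, smul_eq_mul, mul_eq_zero] at h3
  rcases h3 with h3 | h3
  · rw [h3, zero_smul] at h2
    exact sub_eq_zero.1 h2
  · exact absurd (by rw [polar_comm]; exact h3) hvw

theorem step {v w x x' : V} {k k' : ↥(E Q)} (hv : Q v = 0) (hvw : polar Q v w ≠ 0) (hx : polar Q v x = 0)
    (hwx : polar Q w x = 0) (hx' : polar Q v x' = 0) (hwx' : polar Q w x' = 0) (hk : ap k w = w) (hk' : ap k' w = w)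
    (hd : ap ((S Q v x * k)⁻¹ * (S Q v x' * k')) w = w) :
    x = x' ∧ (S Q v x * k)⁻¹ * (S Q v x' * k') = k⁻¹ * k' := by
  have h1 : ap (S Q v x') w = ap (S Q v x) w := by
    have h2 := congrArg (ap (S Q v x * k)) hd
    rw [← ap_mul, mul_inv_cancel_left, ap_mul, ap_mul, hk, hk'] at h2
    exact h2
  have h2 := reg hv hvw hx hwx hx' hwx' h1.symm
  refine ⟨h2, ?_⟩
  rw [h2]
  group

/-- three singular vectors `v i`, with `w i = s (v i)`: three orthogonal hyperbolic planes -/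
structure Tri (Q : QuadraticForm F V) (D : Submodule F V) (s : ↥(E Q)) (v w : Fin 3 → V) : Prop where
  mem : ∀ i, v i ∈ D
  mem' : ∀ i, w i ∈ D
  sv : ∀ i, ap s (v i) = w i
  q : ∀ i, Q (v i) = 0
  c : ∀ i, polar Q (v i) (w i) ≠ 0
  vv : ∀ i j, i ≠ j → polar Q (v i) (v j) = 0
  vw : ∀ i j, i ≠ j → polar Q (v i) (w j) = 0

/-- **existence** -/
theorem exists_tri [Finite F] [FiniteDimensional F V] (h2 : (2 : F) ≠ 0) {D : Submodule F V} {s : ↥(E Q)}
    {e₁ f₁ e₂ f₂ : V} (h : Four Q e₁ f₁ e₂ f₂) (h1 : ap s e₁ = -e₁) (hf1 : ap s f₁ = -f₁) (h2' : ap s e₂ = -e₂)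
    (hf2 : ap s f₂ = -f₂)
    (h5 : ∀ v, polar Q e₁ v = 0 → polar Q f₁ v = 0 → polar Q e₂ v = 0 → polar Q f₂ v = 0 → ap s v = v)
    (hD : Ns Q D) (he₁ : e₁ ∈ D) (hf₁ : f₁ ∈ D) (he₂ : e₂ ∈ D) (hf₂ : f₂ ∈ D) (hd : 7 ≤ Module.finrank F D) :
    ∃ v w : Fin 3 → V, Tri Q D s v w := by
  have hf := finrank_inf_four (Q := Q) D e₁ f₁ e₂ f₂
  obtain ⟨b₁, hb₁, b₂, hb₂, b₃, hb₃, k1, k2, k3, k12, k13, k23⟩ :=
    (hD.inf_four h he₁ hf₁ he₂ hf₂).exists_three h2 (by omega)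
  obtain ⟨a₁, ha₁, a₂, ha₂, a₃, ha₃, l1, l2, l3, l12, l13, l23⟩ :=
    exists_three_four (c₁ := -Q b₁) (c₂ := -Q b₂) (c₃ := -Q b₃) h2 h (neg_ne_zero.2 k1) (neg_ne_zero.2 k2)
  have hspan : Submodule.span F {e₁, f₁, e₂, f₂} ≤ D := by
    rw [Submodule.span_le]
    rintro x (rfl | rfl | rfl | rfl)
    exacts [he₁, hf₁, he₂, hf₂]
  have hneg : ∀ a ∈ Submodule.span F {e₁, f₁, e₂, f₂}, ap s a = -a := by
    intro a ha
    induction ha using Submodule.span_induction with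
    | mem x hx =>
      rcases hx with rfl | rfl | rfl | rfl
      exacts [h1, hf1, h2', hf2]
    | zero => rw [neg_zero]; exact map_zero _
    | add x y _ _ hx hy => rw [ap_add, hx, hy, neg_add]
    | smul c x _ hx => rw [ap_smul, hx, smul_neg]
  have hfix : ∀ b ∈ D ⊓ P4 Q e₁ f₁ e₂ f₂, ap s b = b := by
    rintro b ⟨-, hb⟩
    obtain ⟨m1, m2, m3, m4⟩ := mem_P4.1 hb
    exact h5 b m1 m2 m3 m4
  have hab : ∀ a ∈ Submodule.span F {e₁, f₁, e₂, f₂}, ∀ b ∈ D ⊓ P4 Q e₁ f₁ e₂ f₂, polar Q a b = 0 := by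
    rintro a ha b ⟨-, hb⟩
    obtain ⟨m1, m2, m3, m4⟩ := mem_P4.1 hb
    induction ha using Submodule.span_induction with
    | mem x hx =>
      rcases hx with rfl | rfl | rfl | rfl
      exacts [m1, m2, m3, m4]
    | zero => exact polar_zero_left _ _
    | add x y _ _ hx hy => rw [polar_add_left, hx, hy, add_zero]
    | smul c x _ hx => rw [polar_smul_left, hx, smul_zero]
  let a : Fin 3 → V := ![a₁, a₂, a₃]
  let b : Fin 3 → V := ![b₁, b₂, b₃]
  have ha : ∀ i, a i ∈ Submodule.span F {e₁, f₁, e₂, f₂} := by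
    intro i
    fin_cases i
    exacts [ha₁, ha₂, ha₃]
  have hb : ∀ i, b i ∈ D ⊓ P4 Q e₁ f₁ e₂ f₂ := by
    intro i
    fin_cases i
    exacts [hb₁, hb₂, hb₃]
  have hq : ∀ i, Q (a i) = -Q (b i) := by
    intro i
    fin_cases i
    exacts [l1, l2, l3]
  have hq0 : ∀ i, Q (b i) ≠ 0 := by
    intro i
    fin_cases i
    exacts [k1, k2, k3]
  have haa : ∀ i j, i ≠ j → polar Q (a i) (a j) = 0 := by
    intro i j hij
    fin_cases i <;> fin_cases j
    · exact absurd rfl hij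
    · exact l12
    · exact l13
    · exact (polar_comm Q _ _).trans l12
    · exact absurd rfl hij
    · exact l23
    · exact (polar_comm Q _ _).trans l13
    · exact (polar_comm Q _ _).trans l23
    · exact absurd rfl hij
  have hbb : ∀ i j, i ≠ j → polar Q (b i) (b j) = 0 := by
    intro i j hij
    fin_cases i <;> fin_cases j
    · exact absurd rfl hij
    · exact k12
    · exact k13
    · exact (polar_comm Q _ _).trans k12
    · exact absurd rfl hij
    · exact k23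
    · exact (polar_comm Q _ _).trans k13
    · exact (polar_comm Q _ _).trans k23
    · exact absurd rfl hij
  have hAB : ∀ i j, polar Q (a i) (b j) = 0 := fun i j => hab _ (ha i) _ (hb j)
  have hBA : ∀ i j, polar Q (b i) (a j) = 0 := fun i j => (polar_comm Q _ _).trans (hAB j i)
  refine ⟨fun i => a i + b i, fun i => -a i + b i, fun i => D.add_mem (hspan (ha i)) (hb i).1,
    fun i => D.add_mem (D.neg_mem (hspan (ha i))) (hb i).1, fun i => ?_, fun i => ?_, fun i => ?_, fun i j hij => ?_,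
    fun i j hij => ?_⟩
  · show ap s (a i + b i) = -a i + b i
    rw [ap_add, hneg _ (ha i), hfix _ (hb i)]
  · show Q (a i + b i) = 0
    rw [Q_add, hq, hAB]
    ring
  · show polar Q (a i + b i) (-a i + b i) ≠ 0
    rw [polar_add_left, polar_add_right, polar_add_right, polar_neg_right, polar_neg_right, polar_self', polar_self',
      hAB, hBA, hq]
    have h6 : -(2 * -Q (b i)) + 0 + (-0 + 2 * Q (b i)) = 2 * (2 * Q (b i)) := by ring
    rw [h6]
    exact mul_ne_zero h2 (mul_ne_zero h2 (hq0 i))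
  · show polar Q (a i + b i) (a j + b j) = 0
    rw [polar_add_left, polar_add_right, polar_add_right, haa i j hij, hbb i j hij, hAB, hBA]
    ring
  · show polar Q (a i + b i) (-a j + b j) = 0
    rw [polar_add_left, polar_add_right, polar_add_right, polar_neg_right, polar_neg_right, haa i j hij, hbb i j hij,
      hAB, hBA]
    ring


section count

variable {D : Submodule F V} {s : ↥(E Q)} {v w : Fin 3 → V}

theorem Tri.wv (h : Tri Q D s v w) (hs : s * s = 1) {i j : Fin 3} (hij : i ≠ j) : polar Q (w i) (v j) = 0 := by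
  have h1 := h.vw i j hij
  rw [← polar_ap s, ← h.sv j, ← ap_mul, hs, ap_one, h.sv i] at h1
  exact h1

theorem Tri.sw (h : Tri Q D s v w) (hs : s * s = 1) (i : Fin 3) : ap s (w i) = v i := by
  rw [← h.sv i, ← ap_mul, hs, ap_one]

theorem Tri.ww (h : Tri Q D s v w) {i j : Fin 3} (hij : i ≠ j) : polar Q (w i) (w j) = 0 := by
  rw [← h.sv i, ← h.sv j, polar_ap]
  exact h.vv i j hij

/-- the spaces of the parameters -/
def D1 (Q : QuadraticForm F V) (D : Submodule F V) (v w : Fin 3 → V) : Submodule F V :=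
  D ⊓ P1 Q (v 0) ⊓ P1 Q (w 0)

def D2 (Q : QuadraticForm F V) (D : Submodule F V) (v w : Fin 3 → V) : Submodule F V :=
  D1 Q D v w ⊓ P1 Q (v 1) ⊓ P1 Q (w 1)

def D3 (Q : QuadraticForm F V) (D : Submodule F V) (v w : Fin 3 → V) : Submodule F V :=
  D2 Q D v w ⊓ P1 Q (v 2) ⊓ P1 Q (w 2)

/-- the conjugating element -/
noncomputable def gg (Q : QuadraticForm F V) (v : Fin 3 → V) (x y z : V) : ↥(E Q) :=
  S Q (v 0) x * (S Q (v 1) y * S Q (v 2) z)

/-- **the conjugates `gg s gg⁻¹` are distinct, even modulo scalars** -/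
theorem Tri.inj (h : Tri Q D s v w) {x y z x' y' z' : V} (hx : x ∈ D1 Q D v w)
    (hy : y ∈ D2 Q D v w) (hz : z ∈ D3 Q D v w) (hx' : x' ∈ D1 Q D v w) (hy' : y' ∈ D2 Q D v w) (hz' : z' ∈ D3 Q D v w)
    {ε : F} (H : ∀ t, ap ((gg Q v x y z)⁻¹ * gg Q v x' y' z') (ap s t) =
      ε • ap s (ap ((gg Q v x y z)⁻¹ * gg Q v x' y' z') t)) : x = x' ∧ y = y' ∧ z = z' := by
  obtain ⟨⟨hxD, hx0⟩, hx0'⟩ := hx
  obtain ⟨⟨hx'D, hx'0⟩, hx'0'⟩ := hx'
  obtain ⟨⟨⟨⟨hyD, hy0⟩, hy0'⟩, hy1⟩, hy1'⟩ := hy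
  obtain ⟨⟨⟨⟨hy'D, hy'0⟩, hy'0'⟩, hy'1⟩, hy'1'⟩ := hy'
  obtain ⟨⟨⟨⟨⟨⟨hzD, hz0⟩, hz0'⟩, hz1⟩, hz1'⟩, hz2⟩, hz2'⟩ := hz
  obtain ⟨⟨⟨⟨⟨⟨hz'D, hz'0⟩, hz'0'⟩, hz'1⟩, hz'1'⟩, hz'2⟩, hz'2'⟩ := hz'
  change polar Q _ _ = 0 at hx0 hx0' hx'0 hx'0' hy0 hy0' hy1 hy1' hy'0 hy'0' hy'1 hy'1' hz0 hz0' hz1 hz1' hz2 hz2'
  change polar Q _ _ = 0 at hz'0 hz'0' hz'1 hz'1' hz'2 hz'2'
  have d01 : (0 : Fin 3) ≠ 1 := by decide
  have d02 : (0 : Fin 3) ≠ 2 := by decide
  have d12 : (1 : Fin 3) ≠ 2 := by decide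
  have c : ∀ {a b : V}, polar Q a b = 0 → polar Q b a = 0 := fun hab => by rw [polar_comm]; exact hab
  have self : ∀ i, polar Q (v i) (v i) = 0 := fun i => polar_self_of_sing (h.q i)
  have e00 := self 0
  have e11 := self 1
  have e22 := self 2
  have e01 := h.vv 0 1 d01
  have e02 := h.vv 0 2 d02
  have e12 := h.vv 1 2 d12
  have e10 := h.vv 1 0 d01.symm
  have e20 := h.vv 2 0 d02.symm
  have e21 := h.vv 2 1 d12.symm
  have w10 := h.vw 1 0 d01.symm
  have w20 := h.vw 2 0 d02.symm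
  have w21 := h.vw 2 1 d12.symm
  -- what the factors fix
  have fix : ∀ (i : Fin 3) (p : V), polar Q (v i) p = 0 → ∀ t, polar Q (v i) t = 0 → polar Q t p = 0 →
      ap (S Q (v i) p) t = t := fun i p hp t h1 h2 => S_fix (h.q i) hp h1 (c h2)
  have gv0 : ∀ {x y z : V}, polar Q (v 0) x = 0 → polar Q (v 1) y = 0 → polar Q (v 0) y = 0 → polar Q (v 0) z = 0 →
      polar Q (v 2) z = 0 → ap (gg Q v x y z) (v 0) = v 0 := by
    intro x y z a1 a2 a3 a4 a5
    rw [gg, ap_mul, ap_mul, fix 2 z a5 (v 0) e20 a4, fix 1 y a2 (v 0) e10 a3, fix 0 x a1 (v 0) e00 a1]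
  have hd0 : ap ((gg Q v x y z)⁻¹ * gg Q v x' y' z') (v 0) = v 0 := by
    rw [ap_mul, gv0 hx'0 hy'1 hy'0 hz'0 hz'2]
    exact ap_inv_of (gv0 hx0 hy1 hy0 hz0 hz2)
  have hε : ε = 1 := by
    have h1 := congrArg (polar Q (v 0)) (H (v 0))
    rw [hd0, h.sv 0, polar_smul_right, smul_eq_mul] at h1
    have h2 := polar_ap ((gg Q v x y z)⁻¹ * gg Q v x' y' z') (v 0) (w 0)
    rw [hd0, h1] at h2
    exact mul_right_cancel₀ (h.c 0) (h2.trans (one_mul _).symm)
  have Hw : ∀ i, ap ((gg Q v x y z)⁻¹ * gg Q v x' y' z') (v i) = v i →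
      ap ((gg Q v x y z)⁻¹ * gg Q v x' y' z') (w i) = w i := by
    intro i hi
    have h1 := H (v i)
    rw [hi, h.sv i, hε, one_smul] at h1
    exact h1
  -- the first step
  have hw0 := Hw 0 hd0
  have kw0 : ∀ {y z : V}, polar Q (v 1) y = 0 → polar Q (w 0) y = 0 → polar Q (v 2) z = 0 → polar Q (w 0) z = 0 →
      ap (S Q (v 1) y * S Q (v 2) z) (w 0) = w 0 := by
    intro y z a1 a2 a3 a4
    rw [ap_mul, fix 2 z a3 (w 0) w20 a4, fix 1 y a1 (w 0) w10 a2]
  obtain ⟨hxx, hd⟩ := step (h.q 0) (h.c 0) hx0 hx0' hx'0 hx'0' (kw0 hy1 hy0' hz2 hz0') (kw0 hy'1 hy'0' hz'2 hz'0') hw0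
  -- the second step
  have hd' : (gg Q v x y z)⁻¹ * gg Q v x' y' z' =
      (S Q (v 1) y * S Q (v 2) z)⁻¹ * (S Q (v 1) y' * S Q (v 2) z') := hd
  have kv1 : ∀ {y z : V}, polar Q (v 1) y = 0 → polar Q (v 1) z = 0 → polar Q (v 2) z = 0 →
      ap (S Q (v 1) y * S Q (v 2) z) (v 1) = v 1 := by
    intro y z a1 a2 a3
    rw [ap_mul, fix 2 z a3 (v 1) e21 a2, fix 1 y a1 (v 1) e11 a1]
  have hw1 := Hw 1 (by
    rw [hd', ap_mul, kv1 hy'1 hz'1 hz'2]
    exact ap_inv_of (kv1 hy1 hz1 hz2))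
  rw [hd'] at hw1
  obtain ⟨hyy, hd2⟩ := step (h.q 1) (h.c 1) hy1 hy1' hy'1 hy'1' (fix 2 z hz2 (w 1) w21 hz1')
    (fix 2 z' hz'2 (w 1) w21 hz'1') hw1
  -- the third step
  have hw2 := Hw 2 (by
    rw [hd', hd2, ap_mul, fix 2 z' hz'2 (v 2) e22 hz'2]
    exact ap_inv_of (fix 2 z hz2 (v 2) e22 hz2))
  rw [hd', hd2] at hw2
  have h3 : S Q (v 2) z * 1 = S Q (v 2) z := mul_one _
  have h3' : S Q (v 2) z' * 1 = S Q (v 2) z' := mul_one _
  rw [← h3, ← h3'] at hw2
  exact ⟨hxx, hyy, (step (h.q 2) (h.c 2) hz2 hz2' hz'2 hz'2' (ap_one _) (ap_one _) hw2).1⟩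

theorem finrank_D1 [FiniteDimensional F V] (Q : QuadraticForm F V) (D : Submodule F V) (v w : Fin 3 → V) :
    Module.finrank F D ≤ Module.finrank F (D1 Q D v w) + 2 := by
  have h1 := finrank_inf (Q := Q) D (v 0)
  have h2 := finrank_inf (Q := Q) (D ⊓ P1 Q (v 0)) (w 0)
  have h3 : Module.finrank F (D1 Q D v w) = Module.finrank F (D ⊓ P1 Q (v 0) ⊓ P1 Q (w 0) : Submodule F V) := rfl
  omega

theorem finrank_D2 [FiniteDimensional F V] (Q : QuadraticForm F V) (D : Submodule F V) (v w : Fin 3 → V) :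
    Module.finrank F D ≤ Module.finrank F (D2 Q D v w) + 4 := by
  have h0 := finrank_D1 Q D v w
  have h1 := finrank_inf (Q := Q) (D1 Q D v w) (v 1)
  have h2 := finrank_inf (Q := Q) (D1 Q D v w ⊓ P1 Q (v 1)) (w 1)
  have h3 : Module.finrank F (D2 Q D v w) =
    Module.finrank F (D1 Q D v w ⊓ P1 Q (v 1) ⊓ P1 Q (w 1) : Submodule F V) := rfl
  omega

theorem finrank_D3 [FiniteDimensional F V] (Q : QuadraticForm F V) (D : Submodule F V) (v w : Fin 3 → V) :
    Module.finrank F D ≤ Module.finrank F (D3 Q D v w) + 6 := by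
  have h0 := finrank_D2 Q D v w
  have h1 := finrank_inf (Q := Q) (D2 Q D v w) (v 2)
  have h2 := finrank_inf (Q := Q) (D2 Q D v w ⊓ P1 Q (v 2)) (w 2)
  have h3 : Module.finrank F (D3 Q D v w) =
    Module.finrank F (D2 Q D v w ⊓ P1 Q (v 2) ⊓ P1 Q (w 2) : Submodule F V) := rfl
  omega

theorem card_D [Finite F] [FiniteDimensional F V] (Q : QuadraticForm F V) (D : Submodule F V) (v w : Fin 3 → V)
    {a : ℕ} (ha : a + 12 ≤ 3 * Module.finrank F D) :
    Nat.card F ^ a ≤ Nat.card (D1 Q D v w × D2 Q D v w × D3 Q D v w) := by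
  rw [Nat.card_prod, Nat.card_prod, Module.natCard_eq_pow_finrank (K := F) (V := D1 Q D v w),
    Module.natCard_eq_pow_finrank (K := F) (V := D2 Q D v w), Module.natCard_eq_pow_finrank (K := F) (V := D3 Q D v w), ← pow_add, ← pow_add]
  have h1 := finrank_D1 Q D v w
  have h2 := finrank_D2 Q D v w
  have h3 := finrank_D3 Q D v w
  exact Nat.pow_le_pow_right Nat.card_pos (by omega)

variable {T : Type*} [Group T] [Finite T] {pi : ↥(E Q) →* T}

theorem scalar_comm (hk : KerScalar pi) {s d : ↥(E Q)} (h : pi (d * s) = pi (s * d)) :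
    ∃ ε : F, ∀ t, ap d (ap s t) = ε • ap s (ap d t) := scalar_of_eq hk h

/-- **the number of conjugates** -/
theorem Tri.count [Finite F] [FiniteDimensional F V] (h : Tri Q D s v w) (hk : KerScalar pi) {z : ↥(E Q)}
    (hz : ∀ u ∈ D, ap z u = u) :
    Nat.card (D1 Q D v w × D2 Q D v w × D3 Q D v w) ≤
      (Subgroup.centralizer ({pi s} : Set T)).relIndex (Subgroup.centralizer ({pi z} : Set T)) := by
  have hc : ∀ p : D1 Q D v w × D2 Q D v w × D3 Q D v w, z * gg Q v p.1 p.2.1 p.2.2 = gg Q v p.1 p.2.1 p.2.2 * z := by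
    rintro ⟨x, y, t⟩
    have k1 : ∀ i, ∀ a ∈ D, z * S Q (v i) a = S Q (v i) a * z := fun i a ha => S_comm (hz _ (h.mem i)) (hz _ ha)
    have k2 := k1 0 x x.2.1.1
    have k3 := k1 1 y y.2.1.1.1.1
    have k4 := k1 2 t t.2.1.1.1.1.1.1
    show z * (S Q (v 0) x * (S Q (v 1) y * S Q (v 2) t)) = S Q (v 0) x * (S Q (v 1) y * S Q (v 2) t) * z
    rw [← mul_assoc, k2, mul_assoc, ← mul_assoc z, k3, mul_assoc (S Q (v 1) (y : V)), k4]
    simp only [mul_assoc]
  have hmem : ∀ p : D1 Q D v w × D2 Q D v w × D3 Q D v w,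
      pi (gg Q v p.1 p.2.1 p.2.2) ∈ Subgroup.centralizer ({pi z} : Set T) := by
    intro p
    rw [Subgroup.mem_centralizer_singleton_iff, ← map_mul, ← map_mul, hc p]
  rw [Subgroup.relIndex, Subgroup.index]
  let φ : D1 Q D v w × D2 Q D v w × D3 Q D v w → (Subgroup.centralizer ({pi z} : Set T)) ⧸
      (Subgroup.centralizer ({pi s} : Set T)).subgroupOf (Subgroup.centralizer ({pi z} : Set T)) :=
    fun p => QuotientGroup.mk ⟨_, hmem p⟩
  refine Nat.card_le_card_of_injective φ ?_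
  intro p p' hpp
  have h0 := QuotientGroup.eq.1 hpp
  rw [Subgroup.mem_subgroupOf] at h0
  have h1 : (pi (gg Q v p.1 p.2.1 p.2.2))⁻¹ * pi (gg Q v p'.1 p'.2.1 p'.2.2) ∈
      Subgroup.centralizer ({pi s} : Set T) := h0
  rw [Subgroup.mem_centralizer_singleton_iff, ← map_inv, ← map_mul, ← map_mul, ← map_mul] at h1
  obtain ⟨ε, hε⟩ := scalar_comm hk h1
  obtain ⟨k1, k2, k3⟩ := h.inj p.1.2 p.2.1.2 p.2.2.2 p'.1.2 p'.2.1.2 p'.2.2.2 hε
  exact Prod.ext (Subtype.ext k1) (Prod.ext (Subtype.ext k2) (Subtype.ext k3))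

end count

/-! ### The group of a nondegenerate subspace -/

section sub

open Cfsg.Agent.H112.Row2.OrthExt (ext extE ext_left ext_right ext_siegel QU polar_QU coe_extE)

/-- the group generated by the Siegel elements of a subspace -/
def EB (Q : QuadraticForm F V) (D : Submodule F V) : Subgroup ↥(E Q) :=
  Subgroup.closure {g : ↥(E Q) | ∃ u ∈ D, ∃ w ∈ D, Q u = 0 ∧ polar Q u w = 0 ∧ g = S Q u w}

theorem nondeg_QU {D : Submodule F V} (hD : Ns Q D) : Nondeg (QU Q D) := by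
  intro x hx
  apply Subtype.ext
  apply hD x x.2
  intro y hy
  have h1 := hx ⟨y, hy⟩
  rwa [polar_QU] at h1

theorem ns_P4 (hQ : Nondeg Q) {e₁ f₁ e₂ f₂ : V} (h : Four Q e₁ f₁ e₂ f₂) : Ns Q (P4 Q e₁ f₁ e₂ f₂) := by
  have h1 := (ns_top hQ).inf_four h Submodule.mem_top Submodule.mem_top Submodule.mem_top Submodule.mem_top
  rwa [top_inf_eq] at h1

theorem finrank_P4 [FiniteDimensional F V] (e₁ f₁ e₂ f₂ : V) :
    Module.finrank F V ≤ Module.finrank F (P4 Q e₁ f₁ e₂ f₂) + 4 := by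
  have h1 := finrank_inf_four (Q := Q) ⊤ e₁ f₁ e₂ f₂
  rwa [top_inf_eq, finrank_top] at h1

theorem orth_P4 {e₁ f₁ e₂ f₂ : V} : ∀ u ∈ P4 Q e₁ f₁ e₂ f₂, ∀ w ∈ Submodule.span F {e₁, f₁, e₂, f₂}, polar Q u w = 0 := by
  intro u hu w hw
  obtain ⟨m1, m2, m3, m4⟩ := mem_P4.1 hu
  induction hw using Submodule.span_induction with
  | mem x hx =>
    rw [polar_comm]
    rcases hx with rfl | rfl | rfl | rfl
    exacts [m1, m2, m3, m4]
  | zero => exact polar_zero_right _ _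
  | add x y _ _ hx hy => rw [polar_add_right, hx, hy, add_zero]
  | smul c x _ hx => rw [polar_smul_right, hx, smul_zero]

theorem isCompl_P4 {e₁ f₁ e₂ f₂ : V} (h : Four Q e₁ f₁ e₂ f₂) :
    IsCompl (P4 Q e₁ f₁ e₂ f₂) (Submodule.span F {e₁, f₁, e₂, f₂}) := by
  obtain ⟨p1, p2, p3, p4, p5, p6, p7, p8, p9, p10, p11, p12, p13, p14, p15, p16⟩ := h.pols
  have he₁ : e₁ ∈ Submodule.span F {e₁, f₁, e₂, f₂} := Submodule.subset_span (by simp)
  have hf₁ : f₁ ∈ Submodule.span F {e₁, f₁, e₂, f₂} := Submodule.subset_span (by simp)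
  have he₂ : e₂ ∈ Submodule.span F {e₁, f₁, e₂, f₂} := Submodule.subset_span (by simp)
  have hf₂ : f₂ ∈ Submodule.span F {e₁, f₁, e₂, f₂} := Submodule.subset_span (by simp)
  have key : ∀ v : V, v - (polar Q f₁ v • e₁ + polar Q e₁ v • f₁ + (polar Q f₂ v • e₂ + polar Q e₂ v • f₂)) ∈
      P4 Q e₁ f₁ e₂ f₂ := by
    intro v
    rw [mem_P4]
    refine ⟨?_, ?_, ?_, ?_⟩
    · simp only [polar_sub_right, polar_add_right, polar_smul_right, smul_eq_mul, p1, p5, p9, p11]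
      ring
    · simp only [polar_sub_right, polar_add_right, polar_smul_right, smul_eq_mul, p2, p6, p13, p15]
      ring
    · simp only [polar_sub_right, polar_add_right, polar_smul_right, smul_eq_mul, p3, p7, p10, p14]
      ring
    · simp only [polar_sub_right, polar_add_right, polar_smul_right, smul_eq_mul, p4, p8, p12, p16]
      ring
  have hmem : ∀ v : V, polar Q f₁ v • e₁ + polar Q e₁ v • f₁ + (polar Q f₂ v • e₂ + polar Q e₂ v • f₂) ∈
      Submodule.span F {e₁, f₁, e₂, f₂} := fun v =>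
    Submodule.add_mem _ (Submodule.add_mem _ (Submodule.smul_mem _ _ he₁) (Submodule.smul_mem _ _ hf₁))
      (Submodule.add_mem _ (Submodule.smul_mem _ _ he₂) (Submodule.smul_mem _ _ hf₂))
  constructor
  · rw [Submodule.disjoint_def]
    intro x hx hx'
    obtain ⟨m1, m2, m3, m4⟩ := mem_P4.1 hx
    -- `x` is in the span, so it equals its component
    have h1 : x = polar Q f₁ x • e₁ + polar Q e₁ x • f₁ + (polar Q f₂ x • e₂ + polar Q e₂ x • f₂) := by
      clear hx m1 m2 m3 m4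
      induction hx' using Submodule.span_induction with
      | mem x hx =>
        rcases hx with rfl | rfl | rfl | rfl
        · rw [p1, p6, p10, p12]
          simp
        · rw [p2, p5, p14, p16]
          simp
        · rw [p3, p8, p9, p13]
          simp
        · rw [p4, p7, p11, p15]
          simp
      | zero => simp
      | add x y _ _ hx hy =>
        simp only [polar_add_right]
        nth_rewrite 1 [hx, hy]
        module
      | smul c x _ hx =>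
        simp only [polar_smul_right, smul_eq_mul]
        nth_rewrite 1 [hx]
        module
    rw [h1, m1, m2, m3, m4]
    simp
  · rw [codisjoint_iff, eq_top_iff]
    intro v _
    rw [Submodule.mem_sup]
    exact ⟨_, key v, _, hmem v, sub_add_cancel _ _⟩

/-- the extensions of `E(D)` -/
theorem extE_mem {U W : Submodule F V} (h : IsCompl U W) (ho : ∀ u ∈ U, ∀ w ∈ W, polar Q u w = 0)
    (A : ↥(E (QU Q U))) : extE h ho A ∈ EB Q U := by
  have h1 : E (QU Q U) ≤ ((EB Q U).map (E Q).subtype).comap (ext h) := by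
    rw [E, Subgroup.closure_le]
    rintro _ ⟨u, v, hu, hv, rfl⟩
    have hu' : Q (u : V) = 0 := hu
    have hv' : polar Q (u : V) v = 0 := by rw [← polar_QU]; exact hv
    refine ⟨S Q (u : V) v, Subgroup.subset_closure ⟨u, u.2, v, v.2, hu', hv', rfl⟩, ?_⟩
    rw [ext_siegel h ho hu hv hu' hv', S_eq hu' hv']
    rfl
  obtain ⟨k, hk, hk'⟩ := h1 A.2
  have h2 : extE h ho A = k := Subtype.ext hk'.symm
  rw [h2]
  exact hk

theorem range_extE {U W : Submodule F V} (h : IsCompl U W) (ho : ∀ u ∈ U, ∀ w ∈ W, polar Q u w = 0) :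
    (extE h ho).range = EB Q U := by
  apply le_antisymm
  · rintro _ ⟨A, rfl⟩
    exact extE_mem h ho A
  · rw [EB, Subgroup.closure_le]
    rintro _ ⟨u, hu, w, hw, hQu, hp, rfl⟩
    have hu' : QU Q U ⟨u, hu⟩ = 0 := hQu
    have hp' : polar (QU Q U) ⟨u, hu⟩ ⟨w, hw⟩ = 0 := by rw [polar_QU]; exact hp
    refine ⟨⟨siegel (QU Q U) ⟨u, hu⟩ ⟨w, hw⟩ hu' hp', siegel_mem_E hu' hp'⟩, ?_⟩
    apply Subtype.ext
    rw [coe_extE, ext_siegel h ho hu' hp' hQu hp, S_eq hQu hp]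
    rfl

/-- `E(D)` is contained in `X` or has large index -/
theorem EB_le_of {D W : Submodule F V} (hc : IsCompl D W) (ho : ∀ u ∈ D, ∀ w ∈ W, polar Q u w = 0) {m : ℕ}
    (hmin : ∀ H : Subgroup ↥(E (QU Q D)), H ≠ ⊤ → m ≤ H.index) {X : Subgroup ↥(E Q)} (hX : X.relIndex (EB Q D) < m) :
    EB Q D ≤ X := by
  rw [← range_extE hc ho, ← Subgroup.index_comap] at hX
  have h1 : X.comap (extE hc ho) = ⊤ := by
    by_contra hcon
    exact absurd (hmin _ hcon) (not_le.2 hX)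
  rw [← range_extE hc ho]
  rintro _ ⟨A, rfl⟩
  have h2 : A ∈ X.comap (extE hc ho) := by rw [h1]; exact Subgroup.mem_top _
  exact h2

/-- an element fixing the vectors of `D` commutes with `E(D)` -/
theorem EB_comm {D : Submodule F V} {z : ↥(E Q)} (hz : ∀ u ∈ D, ap z u = u) : ∀ b ∈ EB Q D, z * b = b * z := by
  have h1 : EB Q D ≤ Subgroup.centralizer ({z} : Set ↥(E Q)) := by
    rw [EB, Subgroup.closure_le]
    rintro _ ⟨u, hu, w, hw, -, -, rfl⟩
    rw [SetLike.mem_coe, Subgroup.mem_centralizer_singleton_iff]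
    exact (S_comm (hz u hu) (hz w hw)).symm
  intro b hb
  exact (Subgroup.mem_centralizer_singleton_iff.1 (h1 hb)).symm

/-- `E(D)` fixes the vectors orthogonal to `D` -/
theorem EB_fix {D : Submodule F V} {x : V} (hx : ∀ u ∈ D, polar Q u x = 0) : ∀ b ∈ EB Q D, ap b x = x := by
  intro b hb
  induction hb using Subgroup.closure_induction with
  | mem g hg =>
    obtain ⟨u, hu, w, hw, hQu, hp, rfl⟩ := hg
    exact S_fix hQu hp (hx u hu) (hx w hw)
  | one => exact ap_one x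
  | mul a b _ _ ha hb => rw [ap_mul, hb, ha]
  | inv a _ ha => exact ap_inv_of ha

end sub

/-! ### The middle step -/

section mid

open Subgroup Cfsg.Agent.H209.Fxy Cfsg.Agent.H112.Row2.OrthExt

variable {T : Type*} [Group T] [Finite T]

/-- a scalar does not fix one vector and move another one -/
theorem pi_ne_one {pi : ↥(E Q) →* T} (hk : KerScalar pi) {s : ↥(E Q)} {v : V} (hv : Q v = 0)
    (h : polar Q v (ap s v) ≠ 0) : pi s ≠ 1 := by
  intro h1
  obtain ⟨c, hc⟩ := hk s h1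
  have h2 : ap s v = c • v := hc v
  rw [h2, polar_smul_right, polar_self_of_sing hv, smul_zero] at h
  exact h rfl

theorem pi_ne {pi : ↥(E Q) →* T} (hk : KerScalar pi) {s z : ↥(E Q)} {v : V} (hv : Q v = 0)
    (h : polar Q v (ap s v) ≠ 0) (hz : ap z v = v) : pi s ≠ pi z := by
  intro h1
  obtain ⟨c, hc⟩ := scalar_of_eq hk h1
  have h2 : ap s v = c • ap z v := hc v
  rw [h2, hz, polar_smul_right, polar_self_of_sing hv, smul_zero] at h
  exact h rfl

theorem orderOf_pi {pi : ↥(E Q) →* T} {s : ↥(E Q)} (hs : s * s = 1) (h1 : pi s ≠ 1) : orderOf (pi s) = 2 := by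
  apply orderOf_eq_prime _ h1
  rw [pow_two, ← map_mul, hs, map_one]

theorem finite_E [Finite F] [FiniteDimensional F V] (Q : QuadraticForm F V) : Finite ↥(E Q) := by
  have h1 : Finite V := Module.finite_of_finite F
  have h3 : Finite (V ≃ₗ[F] V) := Finite.of_injective (fun e => (e : V → V)) DFunLike.coe_injective
  infer_instance

/-- **the middle step**: `S Q u w ∈ π⁻¹ A` for all `u, w` fixed by `z` -/
theorem mid_step [Finite F] [FiniteDimensional F V] (h2 : (2 : F) ≠ 0) (hQ : Nondeg Q)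
    (hN : 11 ≤ Module.finrank F V) [IsSimpleGroup T] (hna : ∃ a b : T, a * b ≠ b * a) {A : Subgroup T}
    {Γ : Subgroup (MulAut T)} (h : IF A Γ) (pi : ↥(E Q) →* T) (hpi : Function.Surjective pi) (hk : KerScalar pi)
    (hcl : ∀ z : ↥(E Q), Fund Q z →
      (centralizer ({z} : Set ↥(E Q))).index ≤ Nat.card F ^ (4 * (Module.finrank F V - 4) + 1))
    (hphi : ∀ D : Submodule F V, Ns Q D → Module.finrank F V ≤ Module.finrank F D + 4 →
      ∀ X : Subgroup ↥(E Q), (∀ z ∈ X, ¬ Fund Q z) →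
        Nat.card F ^ (4 * (Module.finrank F V - 4) + 1) ≤ X.relIndex (EB Q D) ^ 5)
    (hmin : ∀ D : Submodule F V, Ns Q D → Module.finrank F V ≤ Module.finrank F D + 4 →
      ∀ H : Subgroup ↥(E (QU Q D)), H ≠ ⊤ → Nat.card F ^ (Module.finrank F V - 6) ≤ H.index)
    {z : ↥(E Q)} (hz : Fund Q z) (hzA : z ∈ A.comap pi) :
    ∀ u w : V, Q u = 0 → polar Q u w = 0 → ap z u = u → ap z w = w → S Q u w ∈ A.comap pi := by
  have hfin := finite_E Q
  have hz' := hz
  obtain ⟨e₁, f₁, e₂, f₂, hF, a1, a2, a3, a4, a5⟩ := hz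
  obtain ⟨p1, p2, p3, p4, p5, p6, p7, p8, p9, p10, p11, p12, p13, p14, p15, p16⟩ := hF.pols
  set D := P4 Q e₁ f₁ e₂ f₂ with hDdef
  have hD : Ns Q D := ns_P4 hQ hF
  have hfr : Module.finrank F V ≤ Module.finrank F D + 4 := finrank_P4 e₁ f₁ e₂ f₂
  have hfixD : ∀ u ∈ D, ap z u = u := by
    intro u hu
    obtain ⟨m1, m2, m3, m4⟩ := mem_P4.1 hu
    exact a5 u m1 m2 m3 m4
  have horth : ∀ x y : V, ap z x = -x → ap z y = y → polar Q x y = 0 := by
    intro x y hx hy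
    have h1 := polar_ap z x y
    rw [hx, hy, polar_neg_left] at h1
    have h3 : (2 : F) * polar Q x y = 0 := by linear_combination -h1
    exact (mul_eq_zero.1 h3).resolve_left h2
  have hmemD : ∀ u : V, ap z u = u → u ∈ D := fun u hu =>
    mem_P4.2 ⟨horth _ _ a1 hu, horth _ _ a2 hu, horth _ _ a3 hu, horth _ _ a4 hu⟩
  have he0 : e₁ ≠ 0 := hF.h1.left_ne
  -- `π z` is an involution
  have hD0 : D ≠ ⊥ := by
    intro h0
    rw [h0, finrank_bot] at hfr
    omega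
  obtain ⟨x0, hx0, hx00⟩ := (Submodule.ne_bot_iff _).1 hD0
  have hz1 : pi z ≠ 1 := by
    intro h1
    obtain ⟨c, hc⟩ := hk z h1
    have k1 : ap z x0 = c • x0 := hc x0
    have k2 : ap z e₁ = c • e₁ := hc e₁
    rw [hfixD x0 hx0] at k1
    have k3 : (c - 1) • x0 = 0 := by rw [sub_smul, ← k1, one_smul, sub_self]
    have k4 : c = 1 := sub_eq_zero.1 ((smul_eq_zero.1 k3).resolve_right hx00)
    rw [a1, k4, one_smul] at k2
    have k5 : (2 : F) • e₁ = 0 := by rw [two_smul]; nth_rewrite 1 [← k2]; exact neg_add_cancel e₁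
    exact he0 ((smul_eq_zero.1 k5).resolve_left h2)
  have hoz : orderOf (pi z) = 2 := orderOf_pi hz'.sq hz1
  have hcomm := EB_comm (Q := Q) hfixD
  -- a fundamental involution in `E(D) ∩ X`
  obtain ⟨s, hsX, hsB, hsF⟩ : ∃ s ∈ A.comap pi, s ∈ EB Q D ∧ Fund Q s := by
    by_contra hcon
    push Not at hcon
    have h3 := hphi D hD hfr (A.comap pi ⊓ EB Q D) (fun s hs => hcon s hs.1 hs.2)
    rw [inf_relIndex_right] at h3
    have h4 := Cfsg.Agent.H847.IF.lift_E2 h hna pi hpi (t := z) hzA hz1 (by rw [hz'.sq, map_one]) (B := EB Q D)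
      (fun b hb => by rw [hcomm b hb])
    exact absurd (lt_of_le_of_lt h3 h4) (not_lt.2 (hcl z hz'))
  obtain ⟨e₁', f₁', e₂', f₂', hF', b1, b2, b3, b4, b5⟩ := hsF
  have hsF : Fund Q s := ⟨e₁', f₁', e₂', f₂', hF', b1, b2, b3, b4, b5⟩
  -- `s` fixes the quadruple of `z`
  have hsfix : ∀ x : V, (∀ u ∈ D, polar Q u x = 0) → ap s x = x := fun x hx => EB_fix hx s hsB
  have hin : ∀ x : V, ap s x = -x → x ∈ D := by
    intro x hx
    have k : ∀ y : V, (∀ u ∈ D, polar Q u y = 0) → polar Q y x = 0 := by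
      intro y hy
      have h1 := polar_ap s y x
      rw [hsfix y hy, hx, polar_neg_right] at h1
      have h3 : (2 : F) * polar Q y x = 0 := by linear_combination -h1
      exact (mul_eq_zero.1 h3).resolve_left h2
    refine mem_P4.2 ⟨k _ fun u hu => ?_, k _ fun u hu => ?_, k _ fun u hu => ?_, k _ fun u hu => ?_⟩
    · rw [polar_comm]; exact (mem_P4.1 hu).1
    · rw [polar_comm]; exact (mem_P4.1 hu).2.1
    · rw [polar_comm]; exact (mem_P4.1 hu).2.2.1
    · rw [polar_comm]; exact (mem_P4.1 hu).2.2.2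
  obtain ⟨v, w, htri⟩ := exists_tri h2 hF' b1 b2 b3 b4 b5 hD (hin _ b1) (hin _ b2) (hin _ b3) (hin _ b4) (by omega)
  have hc0 : polar Q (v 0) (ap s (v 0)) ≠ 0 := by rw [htri.sv 0]; exact htri.c 0
  have hs1 : pi s ≠ 1 := pi_ne_one hk (htri.q 0) hc0
  have hos : orderOf (pi s) = 2 := orderOf_pi hsF.sq hs1
  have hsz : pi s ≠ pi z := pi_ne hk (htri.q 0) hc0 (hfixD _ (htri.mem 0))
  have hszc : pi s * pi z = pi z * pi s := by rw [← map_mul, ← map_mul, hcomm s hsB]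
  obtain ⟨-, -, h5, -⟩ := Cfsg.Agent.H809.IFC.IF.E4 h hna hsX hzA hos hoz hsz hszc
  have h6 : Nat.card F ^ 9 ≤ (centralizer ({pi s} : Set T)).relIndex (centralizer ({pi z} : Set T)) :=
    (card_D Q D v w (by omega)).trans (htri.count hk hfixD)
  have h7 : (centralizer ({pi s} : Set T)).index ≤ Nat.card F ^ (4 * (Module.finrank F V - 4) + 1) := by
    refine le_trans ?_ (hcl s hsF)
    rw [← index_comap_of_surjective _ hpi]
    refine Nat.le_of_dvd (Nat.pos_of_ne_zero index_ne_zero_of_finite) (index_dvd_of_le ?_)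
    intro x hx
    rw [mem_centralizer_singleton_iff] at hx
    rw [mem_comap, mem_centralizer_singleton_iff, ← map_mul, hx, map_mul]
  have hq0 : 0 < Nat.card F := Nat.card_pos
  -- the arithmetic
  have h8 : fx A (MulAut.conj (pi z)) ^ 4 * Nat.card F ^ 9 < (Nat.card F ^ (Module.finrank F V - 6)) ^ 4 * Nat.card F ^ 9 := by
    calc fx A (MulAut.conj (pi z)) ^ 4 * Nat.card F ^ 9
        ≤ fx A (MulAut.conj (pi z)) ^ 4 * (centralizer ({pi s} : Set T)).relIndex (centralizer ({pi z} : Set T)) :=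
          Nat.mul_le_mul_left _ h6
      _ < _ := h5
      _ ≤ _ := h7
      _ = _ := by
        rw [← pow_mul, ← pow_add]
        congr 1
        omega
  have h9 : fx A (MulAut.conj (pi z)) < Nat.card F ^ (Module.finrank F V - 6) :=
    lt_of_pow_lt_pow_left₀ 4 (Nat.zero_le _) (lt_of_mul_lt_mul_right h8 (Nat.zero_le _))
  -- `E(D)` acts on the fixed points of `z`
  have h10 : (A.comap pi).relIndex (EB Q D) < Nat.card F ^ (Module.finrank F V - 6) := by
    refine lt_of_le_of_lt ?_ h9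
    rw [relIndex_comap]
    refine (Cfsg.Agent.H999.IFB.IF.E1 h ((h.conj _).2 hzA) (by
      rw [Cfsg.Agent.H999.IFB.orderOf_conj hna, hoz]) ?_).1
    rintro _ ⟨b, hb, rfl⟩
    rw [MulAut.conj_apply, ← map_mul, hcomm b hb, map_mul, mul_inv_cancel_right]
  have h11 : EB Q D ≤ A.comap pi :=
    EB_le_of (isCompl_P4 hF) orth_P4 (hmin D hD hfr) h10
  intro u w hu huw hzu hzw
  exact h11 (Subgroup.subset_closure ⟨u, hmemD u hzu, w, hmemD w hzw, hu, huw, rfl⟩)

end mid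

end Cfsg.Agent.H276.IF
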