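import Cfsg.Agent.H276.IF.RowT
import Cfsg.Agent.H63.IF.MinIdx

/-!
# S5719, orthogonal groups, q odd, dimension at least 11, |A| even: complete (helper276)

`killE_of` : no counterexample; `rowThm` : the same in the form of helper254; `odd_kill`, `plus_kill`, `minus_kill` : the
cells.
-/

set_option autoImplicit false
set_option linter.unusedSectionVars false

namespace Cfsg.Agent.H276.IF

open QuadraticMap Cfsg Cfsg.Agent.LieClassical.OrthCore Cfsg.Agent.AutOrth.Gen Cfsg.Agent.H209.Fxy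
open Cfsg.Agent.H112.Row2.OrthExt (QU)

/-- **no counterexample with |A| even in a quotient of `E Q` by scalars, q odd, dimension at least 11** -/
theorem killE_of {F V T : Type*} [Field F] [AddCommGroup V] [Module F V] {Q : QuadraticForm F V}
    [Finite F] [FiniteDimensional F V] (h2 : (2 : F) ≠ 0) (hQ : Nondeg Q) (hN : 11 ≤ Module.finrank F V) [Group T]
    [Finite T] [IsSimpleGroup T] (hna : ∃ a b : T, a * b ≠ b * a) {A : Subgroup T} {Γ : Subgroup (MulAut T)}
    (h : IF A Γ) (pi : ↥(E Q) →* T) (hpi : Function.Surjective pi) (hk : KerScalar pi)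
    (hA : ∃ t ∈ A, orderOf t = 2) : False :=
  killE_min h2 hQ hN hna h pi hpi hk hA fun _ hD h7 H hH => Cfsg.Agent.H63.IF.min_index h2 (nondeg_QU hD) h7 H hH

theorem rowThm : Cfsg.Agent.H254.IF.RowThm :=
  rowThm_of fun _ _ _ _ _ _ _ _ h2 hQ h7 H hH => Cfsg.Agent.H63.IF.min_index h2 hQ h7 H hH

/-- the cells of odd dimension `2m + 1 ≥ 11` -/
theorem odd_kill (F : Type) [Field F] [Fintype F] (m : ℕ) (ho : Odd (Fintype.card F)) (hm : 5 ≤ m)
    (hs : IsSimpleGroup (POmega F (quadFormOdd m F))) : KillE (POmega F (quadFormOdd m F)) :=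
  Cfsg.Agent.H254.IF.odd_of rowThm F m ho hm hs

/-- the cells of plus type, dimension `2m ≥ 12` -/
theorem plus_kill (F : Type) [Field F] [Fintype F] (m : ℕ) (ho : Odd (Fintype.card F)) (hm : 6 ≤ m)
    (hs : IsSimpleGroup (POmega F (quadFormPlus m F))) : KillE (POmega F (quadFormPlus m F)) :=
  Cfsg.Agent.H254.IF.plus_of rowThm F m ho hm hs

/-- the cells of minus type, dimension `2m ≥ 12` -/
theorem minus_kill (F : Type) [Field F] [Fintype F] (m : ℕ) (a b : F) (ho : Odd (Fintype.card F))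
    (hm : 6 ≤ m) (hz : ∀ z₁ z₂ : F, z₁ ^ 2 + a * z₁ * z₂ + b * z₂ ^ 2 = 0 → z₁ = 0 ∧ z₂ = 0)
    (hs : IsSimpleGroup (POmega F (quadFormMinus (m - 1) F a b))) :
    KillE (POmega F (quadFormMinus (m - 1) F a b)) :=
  Cfsg.Agent.H254.IF.minus_of rowThm F m a b ho hm hz hs

end Cfsg.Agent.H276.IF
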