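import Cfsg.Agent.H276.IF.KillE
import Cfsg.Agent.H254.IF.Rows

/-!
# S5719, orthogonal groups, q odd, dimension at least 11: the row theorem from the minimal index theorem (helper276)
-/

set_option autoImplicit false
set_option linter.unusedSectionVars false

namespace Cfsg.Agent.H276.IF

open QuadraticMap Cfsg.Agent.LieClassical.OrthCore Cfsg.Agent.AutOrth.Gen
open Cfsg.Agent.H112.Row2.OrthExt (QU)

/-- the minimal index theorem for the groups `E Q` -/
def MinIdx : Prop := ∀ (F V : Type) [Field F] [Finite F] [AddCommGroup V] [Module F V] [FiniteDimensional F V]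
  (Q : QuadraticForm F V), (2 : F) ≠ 0 → Nondeg Q → 7 ≤ Module.finrank F V → ∀ H : Subgroup ↥(E Q), H ≠ ⊤ →
    Nat.card F ^ (Module.finrank F V - 2) ≤ H.index

/-- **the row theorem**, from the minimal index theorem -/
theorem rowThm_of (hmin : MinIdx) : Cfsg.Agent.H254.IF.RowThm := by
  intro F V _ _ _ _ _ Q h2 hQ hN T _ _ _ pi hpi hk hna A Γ h hA
  exact killE_min h2 hQ hN hna h pi hpi hk hA fun D hD h7 H hH => hmin F D (QU Q D) h2 (nondeg_QU hD) h7 H hH

end Cfsg.Agent.H276.IF
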